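import Mathlib
import Cfsg.Agent.Lib.Helper22.Iso.Defs

/-!
# Project ISO (S3044 + S3045): package K1 (basic K-facts)

`pkgK1 : PkgRes → PkgK1`.
-/

set_option autoImplicit false
set_option linter.style.haveILetI false

namespace Cfsg.Agent.Lib.Helper94.Iso

open Cfsg.Agent.Lib.Helper22.Iso

universe u

section aux

variable {G : Type u} [Group G]

theorem pCore_isPGroup_aux (p : ℕ) [Fact p.Prime] (H : Type u) [Group H] :
    IsPGroup p (Cfsg.pCore p H) :=
  Sylow.sSup_of_normal _ (fun _ h => h.2) (fun _ h => h.1)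

theorem pCore_normal_aux (p : ℕ) (H : Type u) [Group H] : (Cfsg.pCore p H).Normal :=
  Subgroup.sSup_normal _ (fun _ h => h.1)

theorem le_pCore_aux {p : ℕ} {H : Type u} [Group H] {N : Subgroup H} (hN : N.Normal)
    (hp : IsPGroup p N) : N ≤ Cfsg.pCore p H :=
  le_sSup ⟨hN, hp⟩

theorem opOf_le (p : ℕ) (H : Subgroup G) : opOf p H ≤ H :=
  Subgroup.map_subtype_le _

theorem opOf_isPGroup (p : ℕ) [Fact p.Prime] (H : Subgroup G) : IsPGroup p (opOf p H) :=
  (pCore_isPGroup_aux p ↥H).map H.subtype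

theorem le_normalizer_opOf (p : ℕ) (H : Subgroup G) :
    H ≤ Subgroup.normalizer ((opOf p H : Subgroup G) : Set G) := by
  haveI := pCore_normal_aux p ↥H
  have h1 := Subgroup.le_normalizer_map (H := Cfsg.pCore p ↥H) H.subtype
  rw [Subgroup.normalizer_eq_top, ← MonoidHom.range_eq_map, Subgroup.range_subtype] at h1
  exact h1

/-- A `p`-subgroup of `H` normalized by `H` lies in `O_p(H)`. -/
theorem le_opOf {p : ℕ} {H N : Subgroup G} (hNH : N ≤ H)
    (hn : H ≤ Subgroup.normalizer (N : Set G)) (hp : IsPGroup p N) : N ≤ opOf p H := by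
  have h1 : (N.subgroupOf H).Normal := (Subgroup.normal_subgroupOf_iff_le_normalizer hNH).mpr hn
  have h2 : IsPGroup p (N.subgroupOf H) := hp.comap_subtype
  have h3 : N.subgroupOf H ≤ Cfsg.pCore p ↥H := le_pCore_aux h1 h2
  calc N = (N.subgroupOf H).map H.subtype := (Subgroup.map_subgroupOf_eq_of_le hNH).symm
    _ ≤ opOf p H := Subgroup.map_mono h3

/-- `O_p(H) ≤ S` for a Sylow `p`-subgroup `S ≤ H`. -/
theorem opOf_le_sylow {p : ℕ} [Fact p.Prime] [Finite G] (S : Sylow p G) {H : Subgroup G}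
    (hSH : (S : Subgroup G) ≤ H) : opOf p H ≤ (S : Subgroup G) := by
  haveI := pCore_normal_aux p ↥H
  have h1 : Cfsg.pCore p ↥H ≤ ((S.subtype hSH : Sylow p ↥H) : Subgroup ↥H) :=
    (pCore_isPGroup_aux p ↥H).le_sylow_of_normal _
  rw [Sylow.coe_subtype] at h1
  calc opOf p H ≤ ((S : Subgroup G).subgroupOf H).map H.subtype := Subgroup.map_mono h1
    _ = (S : Subgroup G) := Subgroup.map_subgroupOf_eq_of_le hSH

/-- `O_p(Y)` is normal in `G` when `Y` is. -/
theorem opOf_normal (p : ℕ) [Fact p.Prime] (Y : Subgroup G) [hY : Y.Normal] :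
    (opOf p Y).Normal := by
  constructor
  intro x hx g
  obtain ⟨y, hy, rfl⟩ := Subgroup.mem_map.mp hx
  have hmem : g * (y : G) * g⁻¹ ∈ Y := hY.conj_mem _ y.2 g
  refine Subgroup.mem_map.mpr ⟨⟨g * (y : G) * g⁻¹, hmem⟩, ?_, rfl⟩
  -- the image of `O_p(Y)` under conjugation by `g` is a normal `p`-subgroup of `Y`
  let φ : ↥Y ≃* ↥Y := MulAut.conjNormal g
  have hφ : ∀ z : ↥Y, ((φ z : ↥Y) : G) = g * (z : G) * g⁻¹ := fun z => rfl
  haveI := pCore_normal_aux p ↥Y
  have hN : ((Cfsg.pCore p ↥Y).map φ.toMonoidHom).Normal :=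
    Subgroup.Normal.map inferInstance _ φ.surjective
  have hp : IsPGroup p ((Cfsg.pCore p ↥Y).map φ.toMonoidHom) :=
    (pCore_isPGroup_aux p ↥Y).map φ.toMonoidHom
  have h3 := le_pCore_aux hN hp
  refine h3 (Subgroup.mem_map.mpr ⟨y, hy, ?_⟩)
  exact Subtype.ext (hφ y)

end aux

/-- Package K1: the basic K-facts. -/
theorem pkgK1 (hRes : PkgRes.{u}) : PkgK1.{u} := by
  intro G _ _ p _ S P L Y hS
  obtain ⟨hTP, hPT, hPTS, hW, hTS⟩ := hRes S P hS.hSP
  have hSL : (S : Subgroup G) ≤ L := by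
    rw [hS.hL]
    exact Subgroup.le_normalizer.trans le_sup_left
  have hQS : opOf p L ≤ (S : Subgroup G) := opOf_le_sylow S hSL
  have hLQ : L ≤ Subgroup.normalizer ((opOf p L : Subgroup G) : Set G) := le_normalizer_opOf p L
  haveI hYn : Y.Normal := by rw [hS.hY]; infer_instance
  refine ⟨?_, hSL, hQS, hLQ, ?_, ?_, hS.hSP.trans hPT, hTS hS.hPmin, ?_⟩
  · -- TY
    rw [hS.hY]
    exact Subgroup.le_normalClosure
  · -- RQ
    haveI := opOf_normal p Y
    have hRS : opOf p Y ≤ (S : Subgroup G) := (opOf_isPGroup p Y).le_sylow_of_normal S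
    refine le_opOf (hRS.trans hSL) ?_ (opOf_isPGroup p Y)
    rw [Subgroup.normalizer_eq_top]
    exact le_top
  · -- TQ
    intro hTQ
    apply hS.hiso
    refine le_opOf (hQS.trans hS.hSP) ?_ (opOf_isPGroup p L)
    exact hPTS.trans (sup_le hTQ (hSL.trans hLQ))
  · -- ncl
    intro N hN hTN
    rw [hS.hY]
    exact Subgroup.normalClosure_le_normal hTN

end Cfsg.Agent.Lib.Helper94.Iso
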