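import Mathlib
import Cfsg.Agent.Lib.Helper22.Iso.Defs

/-!
# Project ISO (S3044 + S3045): package K2 (consequences of the generation lemma)

`pkgK2 : PkgGen → PkgRes → PkgK2`.
-/

set_option autoImplicit false
set_option linter.style.haveILetI false

namespace Cfsg.Agent.Lib.Helper94.Iso

open Cfsg.Agent.Lib.Helper22.Iso

universe u

section aux2

variable {G : Type u} [Group G]

/-- A subgroup that conjugates `N` into itself normalizes it. -/
theorem le_normalizer_of_conj {S N : Subgroup G}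
    (h : ∀ s ∈ S, ∀ x ∈ N, s * x * s⁻¹ ∈ N) : S ≤ Subgroup.normalizer (N : Set G) := by
  intro s hs
  rw [Subgroup.mem_normalizer_iff]
  intro x
  refine ⟨h s hs x, fun hx => ?_⟩
  have h1 := h s⁻¹ (S.inv_mem hs) _ hx
  have h2 : s⁻¹ * (s * x * s⁻¹) * s⁻¹⁻¹ = x := by group
  rwa [h2] at h1

/-- The normalizer of two subgroups normalizes their join. -/
theorem le_normalizer_sup {S B C : Subgroup G} (hB : S ≤ Subgroup.normalizer (B : Set G))
    (hC : S ≤ Subgroup.normalizer (C : Set G)) :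
    S ≤ Subgroup.normalizer ((B ⊔ C : Subgroup G) : Set G) := by
  apply le_normalizer_of_conj
  intro s hs x hx
  have h1 : B ⊔ C ≤ (B ⊔ C).comap (MulAut.conj s).toMonoidHom := by
    refine sup_le ?_ ?_
    · intro b hb
      exact (le_sup_left : B ≤ B ⊔ C) ((Subgroup.mem_normalizer_iff.mp (hB hs) b).mp hb)
    · intro c hc
      exact (le_sup_right : C ≤ B ⊔ C) ((Subgroup.mem_normalizer_iff.mp (hC hs) c).mp hc)
  exact h1 hx

/-- Dedekind's modular law, with the join given by a normalizing subgroup. -/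
theorem inf_sup_le_of_normalizer {S L Y : Subgroup G} (hSL : S ≤ L)
    (hSY : S ≤ Subgroup.normalizer (Y : Set G)) : L ⊓ (Y ⊔ S) ≤ (Y ⊓ L) ⊔ S := by
  intro x hx
  have hx2 : x ∈ ((Y ⊔ S : Subgroup G) : Set G) := hx.2
  rw [Subgroup.coe_mul_of_right_le_normalizer_left Y S hSY] at hx2
  obtain ⟨y, hy, s, hs, rfl⟩ := hx2
  have hyL : y ∈ L := by
    have := L.mul_mem hx.1 (L.inv_mem (hSL hs))
    simpa using this
  exact Subgroup.mul_mem_sup ⟨hy, hyL⟩ hs

end aux2

/-- Package K2: consequences of the generation lemma. -/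
theorem pkgK2 (hGen : PkgGen.{u}) (hRes : PkgRes.{u}) : PkgK2.{u} := by
  intro G _ _ p _ S P L Y hS
  obtain ⟨hTP, hPT, hPTS, hW, hTS⟩ := hRes S P hS.hSP
  have hNL : Subgroup.normalizer ((S : Subgroup G) : Set G) ≤ L := by
    rw [hS.hL]; exact le_sup_left
  have hSL : (S : Subgroup G) ≤ L := Subgroup.le_normalizer.trans hNL
  -- every `p`-minimal overgroup of `S` other than `P` lies in `L`
  have hP'L : ∀ P' : Subgroup G, (S : Subgroup G) ≤ P' → Cfsg.IsPMinimal p ↥P' → P' ≠ P →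
      P' ≤ L := by
    intro P' h1 h2 h3
    rw [hS.hL]
    refine le_trans ?_ le_sup_right
    exact le_iSup (fun P' : {P' : Subgroup G // (S : Subgroup G) ≤ P' ∧
      Cfsg.IsPMinimal p ↥P' ∧ P' ≠ P} => (P' : Subgroup G)) ⟨P', h1, h2, h3⟩
  haveI hYn : Y.Normal := by rw [hS.hY]; infer_instance
  have hTY : resid p P ≤ Y := by
    rw [hS.hY]; exact Subgroup.le_normalClosure
  have hST : (S : Subgroup G) ≤ Subgroup.normalizer ((resid p P : Subgroup G) : Set G) :=
    hS.hSP.trans hPT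
  refine ⟨?_, ?_, ?_⟩
  · -- YL
    rw [eq_top_iff]
    refine (hGen S ⊤ le_top).trans (sup_le ?_ (iSup_le ?_))
    · exact (inf_le_left.trans hNL).trans le_sup_right
    · rintro ⟨P', h1, -, h3⟩
      by_cases hPP : P' = P
      · subst hPP
        exact hPTS.trans (sup_le (hTY.trans le_sup_left) (hSL.trans le_sup_right))
      · exact (hP'L P' h1 h3 hPP).trans le_sup_right
  · -- inv
    intro W hSW hTW
    have hnot : ¬ P ≤ W ⊔ (S : Subgroup G) := fun h => hTW (hW W hSW h)
    refine le_sup_left.trans ((hGen S (W ⊔ (S : Subgroup G)) le_sup_right).trans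
      (sup_le (inf_le_left.trans hNL) (iSup_le ?_)))
    rintro ⟨P', h1, h2, h3⟩
    exact hP'L P' h1 h3 (fun hPP => hnot (hPP ▸ h2))
  · -- gen
    have hSY : (S : Subgroup G) ≤ Subgroup.normalizer (Y : Set G) := by
      rw [Subgroup.normalizer_eq_top]; exact le_top
    have hSYL : (S : Subgroup G) ≤ Subgroup.normalizer ((Y ⊓ L : Subgroup G) : Set G) := by
      apply le_normalizer_of_conj
      intro s hs x hx
      exact ⟨hYn.conj_mem x hx.1 s, L.mul_mem (L.mul_mem (hSL hs) hx.2) (L.inv_mem (hSL hs))⟩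
    have hSA : (S : Subgroup G) ≤
        Subgroup.normalizer (((Y ⊓ L) ⊔ resid p P : Subgroup G) : Set G) :=
      le_normalizer_sup hSYL hST
    have hAY : (Y ⊓ L) ⊔ resid p P ≤ Y := sup_le inf_le_left hTY
    have h1 : Y ⊔ (S : Subgroup G) ≤ ((Y ⊓ L) ⊔ resid p P) ⊔ (S : Subgroup G) := by
      refine (hGen S (Y ⊔ (S : Subgroup G)) le_sup_right).trans (sup_le ?_ (iSup_le ?_))
      · have : Subgroup.normalizer ((S : Subgroup G) : Set G) ⊓ (Y ⊔ (S : Subgroup G)) ≤
            L ⊓ (Y ⊔ (S : Subgroup G)) := inf_le_inf_right _ hNL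
        exact (this.trans (inf_sup_le_of_normalizer hSL hSY)).trans
          (sup_le_sup_right le_sup_left _)
      · rintro ⟨P', h1, h2, h3⟩
        by_cases hPP : P' = P
        · subst hPP
          exact hPTS.trans (sup_le_sup_right le_sup_right _)
        · have : P' ≤ L ⊓ (Y ⊔ (S : Subgroup G)) := le_inf (hP'L P' h1 h3 hPP) h2
          exact (this.trans (inf_sup_le_of_normalizer hSL hSY)).trans
            (sup_le_sup_right le_sup_left _)
    intro y hy
    have hy2 : y ∈ ((((Y ⊓ L) ⊔ resid p P) ⊔ (S : Subgroup G) : Subgroup G) : Set G) :=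
      h1 ((le_sup_left : Y ≤ Y ⊔ (S : Subgroup G)) hy)
    rw [Subgroup.coe_mul_of_right_le_normalizer_left _ _ hSA] at hy2
    obtain ⟨a, ha, s, hs, rfl⟩ := hy2
    have hsY : s ∈ Y := by
      have := Y.mul_mem (Y.inv_mem (hAY ha)) hy
      simpa using this
    have hsA : s ∈ (Y ⊓ L) ⊔ resid p P :=
      (le_sup_left : Y ⊓ L ≤ (Y ⊓ L) ⊔ resid p P) ⟨hsY, hSL hs⟩
    exact Subgroup.mul_mem _ ha hsA

end Cfsg.Agent.Lib.Helper94.Iso
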